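import Mathlib

/-!
# An alternating form has even rank
-/

set_option autoImplicit false

namespace CfsgLib.AltRank

open Module

variable {F V : Type*} [Field F] [AddCommGroup V] [Module F V]

theorem even_rank [FiniteDimensional F V] : ∀ (n : ℕ) (B : V →ₗ[F] V →ₗ[F] F), (∀ x, B x x = 0) →
    finrank F (LinearMap.range B) = n → Even n := by
  intro n
  induction n using Nat.strong_induction_on with
  | _ n ih =>
    intro B hB hn
    rcases Nat.eq_zero_or_pos n with rfl | hpos
    · exact ⟨0, rfl⟩
    have hne : B ≠ 0 := by
      rintro rfl
      rw [LinearMap.range_zero, finrank_bot] at hn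
      omega
    obtain ⟨u, w₀, hw₀⟩ : ∃ u w₀, B u w₀ ≠ 0 := by
      by_contra h
      push Not at h
      exact hne (LinearMap.ext fun u => LinearMap.ext fun w => h u w)
    set w := (B u w₀)⁻¹ • w₀ with hwdef
    have huw : B u w = 1 := by rw [hwdef, map_smul, smul_eq_mul, inv_mul_cancel₀ hw₀]
    have hsk : ∀ x y, B x y = -B y x := fun x y => by
      have h := hB (x + y)
      simp only [map_add, LinearMap.add_apply, hB, zero_add, add_zero] at h
      linear_combination h
    have hwu : B w u = -1 := by rw [hsk, huw]
    set B' : V →ₗ[F] V →ₗ[F] F := B - (B.flip w).smulRight (B u) + (B.flip u).smulRight (B w) with hB'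
    have hap : ∀ x y, B' x y = B x y - B x w * B u y + B x u * B w y := fun x y => by
      simp [hB', LinearMap.flip_apply]
    have halt : ∀ x, B' x x = 0 := fun x => by
      rw [hap, hB, hsk u x, hsk w x]; ring
    have hdisj : LinearMap.ker B ⊓ Submodule.span F {u, w} = ⊥ := by
      rw [eq_bot_iff]
      rintro x ⟨hx, hx'⟩
      obtain ⟨a, b, rfl⟩ := Submodule.mem_span_pair.mp hx'
      rw [SetLike.mem_coe, LinearMap.mem_ker] at hx
      have h1 := LinearMap.congr_fun hx w
      have h2 := LinearMap.congr_fun hx u
      simp [hB, huw, hwu] at h1 h2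
      simp [h1, h2]
    have hker : LinearMap.ker B' = LinearMap.ker B ⊔ Submodule.span F {u, w} := by
      apply le_antisymm
      · intro x hx
        rw [LinearMap.mem_ker] at hx
        have hk : x - (B x w) • u + (B x u) • w ∈ LinearMap.ker B := by
          rw [LinearMap.mem_ker]
          ext y
          have h := LinearMap.congr_fun hx y
          rw [hap] at h
          simp only [map_add, map_sub, map_smul, LinearMap.add_apply, LinearMap.sub_apply, LinearMap.smul_apply,
            smul_eq_mul, LinearMap.zero_apply] at h ⊢
          linear_combination h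
        have hs : (B x w) • u - (B x u) • w ∈ Submodule.span F {u, w} :=
          Submodule.mem_span_pair.mpr ⟨B x w, -(B x u), by rw [neg_smul, ← sub_eq_add_neg]⟩
        have he : x = (x - (B x w) • u + (B x u) • w) + ((B x w) • u - (B x u) • w) := by abel
        rw [he]
        exact Submodule.add_mem_sup hk hs
      · rw [sup_le_iff]
        refine ⟨fun x hx => ?_, Submodule.span_le.mpr ?_⟩
        · rw [LinearMap.mem_ker] at hx ⊢
          ext y
          simp [hap, hx]
        · rintro x (rfl | rfl)
          · rw [SetLike.mem_coe, LinearMap.mem_ker]; ext y; simp [hap, hB, huw]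
          · rw [SetLike.mem_coe, LinearMap.mem_ker]; ext y; simp [hap, hB, hwu]
    have hspan : finrank F (Submodule.span F {u, w}) = 2 := by
      have hli : LinearIndependent F ![u, w] := by
        rw [LinearIndependent.pair_iff]
        intro a b hab
        have h1 := LinearMap.congr_fun (congrArg B hab) w
        have h2 := LinearMap.congr_fun (congrArg B hab) u
        simp [hB, huw, hwu] at h1 h2
        exact ⟨h1, h2⟩
      have h := finrank_span_eq_card hli
      rwa [Matrix.range_cons, Matrix.range_cons, Matrix.range_empty, Set.union_empty, Set.singleton_union, Fintype.card_fin] at h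
    have hsum := Submodule.finrank_sup_add_finrank_inf_eq (LinearMap.ker B) (Submodule.span F {u, w})
    rw [hdisj, finrank_bot, ← hker, hspan] at hsum
    have h1 := LinearMap.finrank_range_add_finrank_ker B
    have h2 := LinearMap.finrank_range_add_finrank_ker B'
    have hn' : finrank F (LinearMap.range B') = n - 2 := by omega
    have hn2 : 2 ≤ n := by omega
    obtain ⟨k, hk⟩ := ih (n - 2) (by omega) B' halt hn'
    exact ⟨k + 1, by omega⟩

end CfsgLib.AltRank
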