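import Mathlib
import Cfsg.Agent.Lib.Forms.Diag

/-! Normal form of symmetric forms over finite fields of odd order. -/
set_option autoImplicit false

namespace CfsgLib.Forms.Represent

variable {F V : Type*} [Field F] [Finite F] [AddCommGroup V] [Module F V] [FiniteDimensional F V]

theorem exists_add_eq (h2 : (2 : F) ≠ 0) {a b : F} (ha : a ≠ 0) (hb : b ≠ 0) (c : F) :
    ∃ x y : F, a * x ^ 2 + b * y ^ 2 = c := by
  haveI := Fintype.ofFinite F
  obtain ⟨x, y, hxy⟩ := FiniteField.exists_root_sum_quadratic (R := F)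
    (f := Polynomial.C a * Polynomial.X ^ 2) (g := Polynomial.C b * Polynomial.X ^ 2 - Polynomial.C c)
    (by simp [ha]) (by rw [Polynomial.degree_sub_C] <;> simp [hb])
    (FiniteField.odd_card_of_char_ne_two (fun h => h2 (by
      haveI : CharP F 2 := ringChar.of_eq h
      exact CharTwo.two_eq_zero)))
  simp at hxy
  exact ⟨x, y, by linear_combination hxy⟩

theorem exists_norm (σ : F →+* F) (hσ : σ ≠ RingHom.id F) (hσ2 : ∀ a : F, σ (σ a) = a) {a : F} (ha : σ a = a) :
    ∃ s, σ s * s = a := by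
  haveI := Fintype.ofFinite F
  by_cases h2 : (2 : F) = 0
  · haveI : CharP F 2 := CharTwo.of_one_ne_zero_of_two_eq_zero one_ne_zero h2
    obtain ⟨s, hs⟩ := FiniteField.isSquare_of_char_two (ringChar.eq F 2) a
    refine ⟨s, ?_⟩
    have h1 : σ s * σ s = s * s := by rw [← map_mul, ← hs, ha]
    have h3 : (σ s - s) * (σ s - s) = 0 := by linear_combination h1 - (σ s * s - s * s) * h2
    rw [sub_eq_zero.1 (mul_self_eq_zero.1 h3), hs]
  · obtain ⟨t, ht⟩ : ∃ t, σ t ≠ t := by
      by_contra h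
      push Not at h
      exact hσ (RingHom.ext h)
    set e := t - σ t with he
    have he0 : e ≠ 0 := sub_ne_zero.2 (Ne.symm ht)
    have hσe : σ e = -e := by rw [he, map_sub, hσ2]; ring
    let K := RingHom.eqLocusField σ (RingHom.id F)
    have hd : e * e ∈ K := by show σ (e * e) = e * e; rw [map_mul, hσe]; ring
    have haK : a ∈ K := ha
    obtain ⟨x, y, hxy⟩ := exists_add_eq (F := K) (fun h => h2 (by have := congrArg K.subtype h; rwa [map_ofNat, map_zero] at this))
      (a := 1) (b := -⟨e * e, hd⟩) one_ne_zero (neg_ne_zero.2 fun h => mul_ne_zero he0 he0 (congrArg Subtype.val h)) ⟨a, haK⟩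
    have hxy' : (1 : F) * (x : F) ^ 2 + -(e * e) * (y : F) ^ 2 = a := by simpa using congrArg Subtype.val hxy
    have hx : σ x = (x : F) := x.2
    have hy : σ y = (y : F) := y.2
    refine ⟨(x : F) + e * y, ?_⟩
    rw [map_add, map_mul, hσe, hx, hy]
    linear_combination hxy'

theorem normal_form (h2 : (2 : F) ≠ 0) (B : LinearMap.BilinForm F V) (hS : B.IsSymm) (hB : B.Nondegenerate)
    {n : ℕ} (hn : Module.finrank F V = n + 1) (α : F) (hα : ¬ IsSquare α) :
    ∃ v : Fin (n + 1) → V, (∀ i j, i ≠ j → B (v i) (v j) = 0) ∧ (∀ i, i ≠ Fin.last n → B (v i) (v i) = 1) ∧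
      (B (v (Fin.last n)) (v (Fin.last n)) = 1 ∨ B (v (Fin.last n)) (v (Fin.last n)) = α) := by
  haveI := Fintype.ofFinite F
  have hα0 : α ≠ 0 := by rintro rfl; exact hα IsSquare.zero
  have hsymm : ∀ x y, B x y = B y x := fun x y => (hS.eq x y)
  obtain ⟨v, hv, hP⟩ := Diag.exists_family (σ := RingHom.id F) B (fun x y => hsymm x y) hB.1 hn
    (fun m a => a ≠ 0 ∧ (2 ≤ m → a = 1) ∧ (a = 1 ∨ a = α)) (fun m a h => h.1) (by
    intro W hpos hnd
    have anis : ∀ U : Submodule F V, (∃ x ∈ U, x ≠ 0) → (∀ x ∈ U, (∀ y ∈ U, B x y = 0) → x = 0) →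
        ∃ x ∈ U, B x x ≠ 0 := fun U hU hUnd => by
      by_contra h
      push Not at h
      obtain ⟨x, hxU, hx0⟩ := hU
      refine hx0 (hUnd x hxU fun y hy => ?_)
      have := h (x + y) (U.add_mem hxU hy)
      simp [h x hxU, h y hy, hsymm y x] at this
      exact (mul_eq_zero.1 ((two_mul _).trans this)).resolve_left h2
    obtain ⟨x, hxW, hx⟩ : ∃ x ∈ W, B x x ≠ 0 := anis W (by
      haveI := Module.finrank_pos_iff.1 hpos
      obtain ⟨a, ha⟩ := exists_ne (0 : W)
      exact ⟨a, a.2, fun h => ha (Subtype.ext h)⟩) hnd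
    by_cases hd : 2 ≤ Module.finrank F W
    · obtain ⟨y, hy, hy0⟩ : ∃ y ∈ W ⊓ LinearMap.ker (B x), y ≠ 0 := by
        by_contra h
        push Not at h
        have hle : W ≤ Submodule.span F {x} := fun w hw => by
          refine Submodule.mem_span_singleton.2 ⟨B x w / B x x, (sub_eq_zero.1 ?_).symm⟩
          exact h _ ⟨W.sub_mem hw (W.smul_mem _ hxW), by simp [hx]⟩
        have := Submodule.finrank_mono hle
        rw [finrank_span_singleton (fun h0 => hx (by simp [h0]))] at this
        omega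
      obtain ⟨y, hyW, hy⟩ := anis (W ⊓ LinearMap.ker (B x)) ⟨y, hy, hy0⟩ (fun p hp h => hnd p hp.1 fun q hq => by
        have hq' : q - (B x q / B x x) • x ∈ W ⊓ LinearMap.ker (B x) :=
          ⟨W.sub_mem hq (W.smul_mem _ hxW), by simp [hx]⟩
        have := h _ hq'
        have hpx : B p x = 0 := by rw [hsymm]; exact hp.2
        simpa [hpx] using this)
      obtain ⟨s, t, hst⟩ := exists_add_eq h2 hx hy 1
      have hxy : B x y = 0 := hyW.2
      refine ⟨s • x + t • y, W.add_mem (W.smul_mem _ hxW) (W.smul_mem _ hyW.1), ?_⟩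
      have : B (s • x + t • y) (s • x + t • y) = 1 := by
        simp [hxy, hsymm y x]; linear_combination hst
      exact ⟨by rw [this]; exact one_ne_zero, fun _ => this, Or.inl this⟩
    · obtain ⟨a, ha⟩ : ∃ a, B x x = a := ⟨_, rfl⟩
      rw [ha] at hx
      obtain ⟨c, hc, hval⟩ : ∃ c : F, c ≠ 0 ∧ (c * c * a = 1 ∨ c * c * a = α) := by
        by_cases hsq : IsSquare a
        · obtain ⟨r, rfl⟩ := hsq
          refine ⟨r⁻¹, inv_ne_zero (left_ne_zero_of_mul hx), Or.inl ?_⟩
          have := left_ne_zero_of_mul hx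
          field_simp
        · obtain ⟨r, hr⟩ := isSquare_mul_of_nonsquare h2 hα hsq
          have hr0 : r ≠ 0 := fun h => mul_ne_zero hα0 hx (by rw [hr, h, zero_mul])
          refine ⟨r / a, div_ne_zero hr0 hx, Or.inr ?_⟩
          field_simp
          linear_combination -hr
      refine ⟨c • x, W.smul_mem _ hxW, ?_⟩
      have : B (c • x) (c • x) = c * c * a := by simp [ha]; ring
      rw [this]
      exact ⟨mul_ne_zero (mul_ne_zero hc hc) hx, fun h => absurd h hd, hval⟩)
  refine ⟨v, hv, fun i hi => (hP i).2.1 ?_, (hP _).2.2⟩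
  have : (i : ℕ) < n := lt_of_le_of_ne (Nat.lt_succ_iff.1 i.2) fun h => hi (Fin.ext h)
  omega
where
  isSquare_mul_of_nonsquare (h2 : (2 : F) ≠ 0) {a b : F} (ha : ¬ IsSquare a) (hb : ¬ IsSquare b) :
      IsSquare (a * b) := by
    classical
    haveI := Fintype.ofFinite F
    have hF : ringChar F ≠ 2 := fun h => h2 (by
      haveI : CharP F 2 := ringChar.of_eq h
      exact CharTwo.two_eq_zero)
    have hab : a * b ≠ 0 := mul_ne_zero (by rintro rfl; exact ha IsSquare.zero) (by rintro rfl; exact hb IsSquare.zero)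
    rw [← quadraticChar_one_iff_isSquare hab, map_mul,
      quadraticChar_neg_one_iff_not_isSquare.2 ha, quadraticChar_neg_one_iff_not_isSquare.2 hb]
    norm_num

end CfsgLib.Forms.Represent
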