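import Mathlib

/-! Witt's extension theorem for alternating, Hermitian and quadratic forms. -/
set_option autoImplicit false

namespace CfsgLib.Forms.Witt

variable {F V : Type*} [Field F] [AddCommGroup V] [Module F V] [FiniteDimensional F V]

theorem extend_list {β : Type*} (k : V → V → β)
    (step : ∀ (X₀ : Submodule F V) (x y : V), x ∉ X₀ → y ∉ X₀ →
      (∀ z ∈ X₀, ∀ z' ∈ X₀, ∀ a a' : F, k (z + a • y) (z' + a' • y) = k (z + a • x) (z' + a' • x)) →
      ∃ g : V ≃ₗ[F] V, (∀ u v, k (g u) (g v) = k u v) ∧ (∀ z ∈ X₀, g z = z) ∧ g x = y) :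
    ∀ (n : ℕ) (v u : Fin n → V), LinearIndependent F v → LinearIndependent F u →
      (∀ c d : Fin n → F, k (∑ i, c i • u i) (∑ i, d i • u i) = k (∑ i, c i • v i) (∑ i, d i • v i)) →
      ∃ g : V ≃ₗ[F] V, (∀ p q, k (g p) (g q) = k p q) ∧ ∀ i, g (v i) = u i := by
  intro n
  induction n with
  | zero => exact fun v u _ _ _ => ⟨LinearEquiv.refl F V, fun _ _ => rfl, fun i => i.elim0⟩
  | succ n ih =>
    intro v u hv hu hk
    obtain ⟨g₀, hg₀, hg₀v⟩ := ih (fun i => v i.castSucc) (fun i => u i.castSucc)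
      (hv.comp _ (Fin.castSucc_injective n)) (hu.comp _ (Fin.castSucc_injective n)) (fun c d => by
        have h := hk (Fin.snoc c 0) (Fin.snoc d 0)
        simpa [Fin.sum_univ_castSucc] using h)
    set X₀ := Submodule.span F (Set.range fun i : Fin n => v i.castSucc) with hX₀
    obtain ⟨y, hy⟩ : ∃ y, g₀ y = u (Fin.last n) := ⟨g₀.symm _, g₀.apply_symm_apply _⟩
    have himg : ∀ c : Fin n → F, g₀ (∑ i, c i • v i.castSucc) = ∑ i, c i • u i.castSucc := fun c => by
      simp [map_sum, hg₀v]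
    have hx : v (Fin.last n) ∉ X₀ := by
      rw [hX₀, Submodule.mem_span_range_iff_exists_fun]
      rintro ⟨c, hc⟩
      have := Fintype.linearIndependent_iff.1 hv (Fin.snoc c (-1))
        (by simp [Fin.sum_univ_castSucc, hc]) (Fin.last n)
      simp at this
    have hy' : y ∉ X₀ := by
      rw [hX₀, Submodule.mem_span_range_iff_exists_fun]
      rintro ⟨c, hc⟩
      have := Fintype.linearIndependent_iff.1 hu (Fin.snoc c (-1))
        (by simp [Fin.sum_univ_castSucc, ← himg, hc, hy]) (Fin.last n)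
      simp at this
    obtain ⟨g₁, hg₁, hfix, hg₁x⟩ := step X₀ (v (Fin.last n)) y hx hy' (fun z hz z' hz' a a' => by
      rw [hX₀, Submodule.mem_span_range_iff_exists_fun] at hz hz'
      obtain ⟨c, rfl⟩ := hz
      obtain ⟨d, rfl⟩ := hz'
      have h := hk (Fin.snoc c a) (Fin.snoc d a')
      simp only [Fin.sum_univ_castSucc, Fin.snoc_castSucc, Fin.snoc_last] at h
      rw [← hg₀, map_add, map_add, map_smul, map_smul, himg, himg, hy]
      exact h)
    refine ⟨g₁.trans g₀, fun p q => by simp [hg₀, hg₁], fun i => ?_⟩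
    refine Fin.lastCases ?_ (fun j => ?_) i
    · simp [hg₁x, hy]
    · simp [hfix _ (Submodule.subset_span ⟨j, rfl⟩), hg₀v]

/-- preservation of a kernel on a subspace extends to the whole space, given the one-vector step -/
theorem extend {β : Type*} (k : V → V → β)
    (step : ∀ (X₀ : Submodule F V) (x y : V), x ∉ X₀ → y ∉ X₀ →
      (∀ z ∈ X₀, ∀ z' ∈ X₀, ∀ a a' : F, k (z + a • y) (z' + a' • y) = k (z + a • x) (z' + a' • x)) →
      ∃ g : V ≃ₗ[F] V, (∀ u v, k (g u) (g v) = k u v) ∧ (∀ z ∈ X₀, g z = z) ∧ g x = y)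
    (X Y : Submodule F V) (φ : X ≃ₗ[F] Y) (hφ : ∀ x x' : X, k (φ x : V) (φ x' : V) = k (x : V) (x' : V)) :
    ∃ g : V ≃ₗ[F] V, (∀ u v, k (g u) (g v) = k u v) ∧ ∀ x : X, g (x : V) = (φ x : V) := by
  set b := Module.finBasis F X
  have e1 : ∀ c : Fin (Module.finrank F X) → F, (∑ i, c i • (φ (b i) : V)) = (φ (∑ i, c i • b i) : V) :=
    fun c => by simp [map_sum]
  have e2 : ∀ c : Fin (Module.finrank F X) → F, (∑ i, c i • (b i : V)) = ((∑ i, c i • b i : X) : V) :=
    fun c => by simp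
  obtain ⟨g, hg, hgb⟩ := extend_list k step _ (fun i => (b i : V)) (fun i => (φ (b i) : V))
    (b.linearIndependent.map' X.subtype (Submodule.ker_subtype X))
    (b.linearIndependent.map' (Y.subtype.comp φ.toLinearMap) (LinearMap.ker_eq_bot.2
      (fun p q h => φ.injective (Subtype.ext h))))
    (fun c d => by rw [e1, e1, e2, e2]; exact hφ _ _)
  refine ⟨g, hg, fun x => ?_⟩
  rw [← b.sum_repr x, ← e1, ← e2, map_sum]
  exact Finset.sum_congr rfl fun i _ => by simp [hgb]

/-- linear equivalence from an injective endomorphism -/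
noncomputable def mkEquiv (L : V →ₗ[F] V) (hL : ∀ z, L z = 0 → z = 0) : V ≃ₗ[F] V :=
  LinearEquiv.ofInjectiveEndo L (LinearMap.ker_eq_bot.1 (LinearMap.ker_eq_bot'.2 hL))

theorem mkEquiv_apply (L : V →ₗ[F] V) (hL : ∀ z, L z = 0 → z = 0) (z : V) : mkEquiv L hL z = L z := rfl

/-- A functional with prescribed value on a vector outside a subspace. -/
theorem exists_functional (X : Submodule F V) (x : V) (hx : x ∉ X) :
    ∃ f : V →ₗ[F] F, (∀ z ∈ X, f z = 0) ∧ f x = 1 := by
  obtain ⟨f, hf, hfX⟩ := Submodule.exists_dual_map_eq_bot_of_notMem hx inferInstance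
  refine ⟨(f x)⁻¹ • f, fun z hz => ?_, by simp [hf]⟩
  have : f z ∈ Submodule.map f X := Submodule.mem_map_of_mem hz
  rw [hfX] at this
  simp [(Submodule.mem_bot F).1 this]

end CfsgLib.Forms.Witt
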