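import Mathlib
import Cfsg.Agent.Lib.Forms.Witt

/-! Witt's theorem for nondegenerate alternating forms. -/
set_option autoImplicit false

namespace CfsgLib.Forms.WittAlt
open CfsgLib.Forms.Witt

variable {F V : Type*} [Field F] [AddCommGroup V] [Module F V] [FiniteDimensional F V]
  (B : LinearMap.BilinForm F V)

theorem exists_vec (hB : B.Nondegenerate) (f : V →ₗ[F] F) : ∃ v, ∀ z, B z v = f z := by
  have inj : Function.Injective (LinearMap.flip B) := by
    intro p q h
    refine sub_eq_zero.1 (hB.2 _ fun z => ?_)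
    have := LinearMap.congr_fun h z
    simp only [LinearMap.flip_apply] at this
    simp [map_sub, this]
  obtain ⟨v, hv⟩ := (LinearMap.injective_iff_surjective_of_finrank_eq_finrank
    (Subspace.dual_finrank_eq).symm).1 inj f
  exact ⟨v, fun z => by rw [← hv]; rfl⟩

theorem step (hB : B.Nondegenerate) (hA : B.IsAlt) (X₀ : Submodule F V) (x y : V) (hx : x ∉ X₀)
    (hy : y ∉ X₀) (hk : ∀ z ∈ X₀, ∀ z' ∈ X₀, ∀ a a' : F, B (z + a • y) (z' + a' • y) = B (z + a • x) (z' + a' • x)) :
    ∃ g : V ≃ₗ[F] V, (∀ u v, B (g u) (g v) = B u v) ∧ (∀ z ∈ X₀, g z = z) ∧ g x = y := by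
  have hs : ∀ p q, B p q = -B q p := fun p q => by rw [← LinearMap.IsAlt.neg hA q p]
  have inj : ∀ (L : V →ₗ[F] V), (∀ p q, B (L p) (L q) = B p q) → ∀ z, L z = 0 → z = 0 := fun L hL z hz =>
    hB.1 z fun q => by rw [← hL, hz, map_zero, LinearMap.zero_apply]
  have hzy : ∀ z ∈ X₀, B z y = B z x := fun z hz => by
    have := hk z hz 0 X₀.zero_mem 0 1; simpa using this
  obtain ⟨w, rfl⟩ : ∃ w, y = x + w := ⟨y - x, by abel⟩
  have hw : ∀ z ∈ X₀, B z w = 0 := fun z hz => by
    have := hzy z hz; simpa [map_add] using this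
  have mk : ∀ L : V →ₗ[F] V, (∀ p q, B (L p) (L q) = B p q) → (∀ z ∈ X₀, L z = z) → L x = x + w →
      ∃ g : V ≃ₗ[F] V, (∀ u v, B (g u) (g v) = B u v) ∧ (∀ z ∈ X₀, g z = z) ∧ g x = x + w := fun L hL h1 h2 =>
    ⟨mkEquiv L (inj L hL), fun u v => hL u v, fun z hz => h1 z hz, h2⟩
  have hww : B w w = 0 := hA w
  by_cases hs0 : B x w = 0
  swap
  · refine mk (LinearMap.id + ((B x w)⁻¹ • LinearMap.flip B w).smulRight w) (fun p q => ?_) (fun z hz => ?_) ?_
    · simp [hww, hs w q]; ring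
    · simp [hw z hz]
    · simp [hs0]
  by_cases hmem : x ∈ X₀ ⊔ Submodule.span F {w}
  · obtain ⟨x₀, hx₀, s, hsw, hxe⟩ := Submodule.mem_sup.1 hmem
    obtain ⟨c, rfl⟩ := Submodule.mem_span_singleton.1 hsw
    subst hxe
    have hc : c ≠ 0 := by rintro rfl; exact hx (by simpa using hx₀)
    have hc1 : c + 1 ≠ 0 := by
      intro h; exact hy (by rw [add_assoc, ← one_smul F w, smul_smul, ← add_smul, mul_one, h, zero_smul, add_zero]; exact hx₀)
    have hwX : w ∉ X₀ := fun h => hx (X₀.add_mem hx₀ (X₀.smul_mem c h))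
    obtain ⟨f, hfX, hfw⟩ := exists_functional X₀ w hwX
    obtain ⟨v, hv⟩ := exists_vec B hB f
    set l : F := (c + 1) / c with hl
    have hl0 : l ≠ 0 := div_ne_zero hc1 hc
    refine mk (LinearMap.id + ((l - 1) • LinearMap.flip B v).smulRight w + ((1 - l⁻¹) • LinearMap.flip B w).smulRight v)
      (fun p q => ?_) (fun z hz => ?_) ?_
    · have hwv : B w v = 1 := by rw [hv, hfw]
      have hvv : B v v = 0 := hA v
      simp [hww, hvv, hwv, hs v w, hs w q, hs v q]
      field_simp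
      ring
    · simp [hw z hz, hv z, hfX z hz]
    · simp [hw x₀ hx₀, hv x₀, hv w, hfX x₀ hx₀, hfw, hww, add_assoc]
      rw [hl]
      match_scalars
      field_simp
      ring
  · obtain ⟨f, hfX, hfx⟩ := exists_functional _ x hmem
    obtain ⟨v, hv⟩ := exists_vec B hB f
    have hwv : B w v = 0 := by rw [hv]; exact hfX w (Submodule.mem_sup_right (Submodule.mem_span_singleton_self w))
    refine mk (LinearMap.id + (LinearMap.flip B w).smulRight v + (LinearMap.flip B v).smulRight w) (fun p q => ?_) (fun z hz => ?_) ?_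
    · simp [hww, hA v, hwv, hs v w, hs w q, hs v q]; ring
    · simp [hw z hz, hv z, hfX z (Submodule.mem_sup_left hz)]
    · simp [hs0, hv x, hfx]

end CfsgLib.Forms.WittAlt
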