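import Mathlib
import Cfsg.Agent.Lib.Forms.Witt

/-! Witt's theorem for quadratic forms with nondegenerate polar form, any characteristic. -/
set_option autoImplicit false

namespace CfsgLib.Forms.WittQuad
open CfsgLib.Forms.Witt

variable {F V : Type*} [Field F] [AddCommGroup V] [Module F V] [FiniteDimensional F V]
  (Q : QuadraticForm F V)

theorem exists_vec (hQ : (QuadraticMap.polarBilin Q).Nondegenerate) (f : V →ₗ[F] F) :
    ∃ v, ∀ z, QuadraticMap.polar Q z v = f z := by
  have inj : Function.Injective (QuadraticMap.polarBilin Q) := by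
    intro p q h
    refine sub_eq_zero.1 (hQ.1 _ fun z => ?_)
    simp [map_sub, LinearMap.congr_fun h z]
  obtain ⟨v, hv⟩ := (LinearMap.injective_iff_surjective_of_finrank_eq_finrank
    (Subspace.dual_finrank_eq).symm).1 inj f
  exact ⟨v, fun z => by rw [← hv, QuadraticMap.polarBilin_apply_apply, QuadraticMap.polar_comm]⟩

theorem Qadd (x y : V) : Q (x + y) = Q x + Q y + QuadraticMap.polar Q x y := by
  simp [QuadraticMap.polar]

theorem Qexp (p w v : V) (a b : F) : Q (p + a • w + b • v) = Q p + a * a * Q w + b * b * Q v +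
    a * QuadraticMap.polar Q p w + b * QuadraticMap.polar Q p v + a * b * QuadraticMap.polar Q w v := by
  simp only [Qadd, QuadraticMap.map_smul, QuadraticMap.polar_add_left, QuadraticMap.polar_smul_left,
    QuadraticMap.polar_smul_right, smul_eq_mul]
  ring

theorem step (hQ : (QuadraticMap.polarBilin Q).Nondegenerate) (X₀ : Submodule F V) (x y : V) (hx : x ∉ X₀)
    (hy : y ∉ X₀) (hk : ∀ z ∈ X₀, ∀ a : F, Q (z + a • y) = Q (z + a • x)) :
    ∃ g : V ≃ₗ[F] V, (∀ u, Q (g u) = Q u) ∧ (∀ z ∈ X₀, g z = z) ∧ g x = y := by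
  have inj : ∀ (L : V →ₗ[F] V), (∀ p, Q (L p) = Q p) → ∀ z, L z = 0 → z = 0 := fun L hL z hz =>
    hQ.1 z fun q => by
      have h := hL (z + q)
      rw [map_add, hz, zero_add, Qadd, hL q] at h
      have h2 := hL z
      rw [hz, QuadraticMap.map_zero] at h2
      rw [← h2] at h
      rw [QuadraticMap.polarBilin_apply_apply]
      linear_combination -h
  have hQy : Q y = Q x := by have := hk 0 X₀.zero_mem 1; simpa using this
  obtain ⟨w, rfl⟩ : ∃ w, y = x + w := ⟨y - x, by abel⟩
  have hw : ∀ z ∈ X₀, QuadraticMap.polar Q z w = 0 := fun z hz => by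
    have h := hk z hz 1
    rw [one_smul, one_smul, Qadd, Qadd Q z x, hQy, QuadraticMap.polar_add_right] at h
    linear_combination h
  have hxw : QuadraticMap.polar Q x w = -Q w := by rw [Qadd] at hQy; linear_combination hQy
  have mk : ∀ L : V →ₗ[F] V, (∀ p, Q (L p) = Q p) → (∀ z ∈ X₀, L z = z) → L x = x + w →
      ∃ g : V ≃ₗ[F] V, (∀ u, Q (g u) = Q u) ∧ (∀ z ∈ X₀, g z = z) ∧ g x = x + w := fun L hL h1 h2 =>
    ⟨mkEquiv L (inj L hL), fun u => hL u, fun z hz => h1 z hz, h2⟩
  let P := QuadraticMap.polarBilin Q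
  have hP : ∀ z a, P.flip a z = QuadraticMap.polar Q z a := fun z a => rfl
  by_cases hQw : Q w = 0
  swap
  · refine mk (LinearMap.id - ((Q w)⁻¹ • P.flip w).smulRight w) (fun p => ?_) (fun z hz => ?_) ?_
    · calc Q _ = Q (p + (-((Q w)⁻¹ * QuadraticMap.polar Q p w)) • w + (0 : F) • w) := by
            simp [hP, sub_eq_add_neg]
        _ = Q p := by rw [Qexp]; field_simp; ring
    · simp [hP, hw z hz]
    · simp [hP, hxw, hQw]
  have hxw0 : QuadraticMap.polar Q x w = 0 := by rw [hxw, hQw, neg_zero]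
  have hww : QuadraticMap.polar Q w w = 0 := by simp [QuadraticMap.polar_self, hQw]
  by_cases hmem : x ∈ X₀ ⊔ Submodule.span F {w}
  · obtain ⟨x₀, hx₀, s, hsw, hxe⟩ := Submodule.mem_sup.1 hmem
    obtain ⟨c, rfl⟩ := Submodule.mem_span_singleton.1 hsw
    subst hxe
    have hc : c ≠ 0 := by rintro rfl; exact hx (by simpa using hx₀)
    have hc1 : c + 1 ≠ 0 := by
      intro h; exact hy (by rw [add_assoc, ← one_smul F w, smul_smul, ← add_smul, mul_one, h, zero_smul, add_zero]; exact hx₀)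
    have hwX : w ∉ X₀ := fun h => hx (X₀.add_mem hx₀ (X₀.smul_mem c h))
    obtain ⟨f, hfX, hfw⟩ := exists_functional X₀ w hwX
    obtain ⟨v₀, hv₀⟩ := exists_vec Q hQ f
    obtain ⟨v, hv, hvv⟩ : ∃ v, (∀ z, QuadraticMap.polar Q z v = f z - Q v₀ * QuadraticMap.polar Q z w) ∧ Q v = 0 := by
      refine ⟨v₀ + (-Q v₀) • w, fun z => ?_, ?_⟩
      · rw [QuadraticMap.polar_add_right, QuadraticMap.polar_smul_right, hv₀, smul_eq_mul]; ring
      · rw [Qadd, QuadraticMap.map_smul, hQw, QuadraticMap.polar_smul_right, QuadraticMap.polar_comm, hv₀, hfw]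
        simp
    set l : F := (c + 1) / c with hl
    have hl0 : l ≠ 0 := div_ne_zero hc1 hc
    have hwv : QuadraticMap.polar Q w v = 1 := by rw [hv, hfw, hww]; simp
    refine mk (LinearMap.id + ((l - 1) • P.flip v).smulRight w + ((l⁻¹ - 1) • P.flip w).smulRight v)
      (fun p => ?_) (fun z hz => ?_) ?_
    · calc Q _ = Q (p + ((l - 1) * QuadraticMap.polar Q p v) • w + ((l⁻¹ - 1) * QuadraticMap.polar Q p w) • v) := by
            simp [hP]
        _ = Q p := by rw [Qexp, hQw, hvv, hwv]; field_simp; ring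
    · simp [hP, hw z hz, hv z, hfX z hz]
    · simp [hP, hw x₀ hx₀, hv x₀, hv w, hfX x₀ hx₀, hfw, hww, add_assoc, QuadraticMap.polar_add_left,
        QuadraticMap.polar_smul_left]
      rw [hl]
      match_scalars
      field_simp
      ring
  · obtain ⟨f, hfX, hfx⟩ := exists_functional _ x hmem
    obtain ⟨v, hv⟩ := exists_vec Q hQ (-f)
    have hwv : QuadraticMap.polar Q w v = 0 := by
      rw [hv, LinearMap.neg_apply, hfX w (Submodule.mem_sup_right (Submodule.mem_span_singleton_self w)), neg_zero]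
    refine mk (LinearMap.id + (P.flip w).smulRight v - (P.flip v + Q v • P.flip w).smulRight w)
      (fun p => ?_) (fun z hz => ?_) ?_
    · calc Q _ = Q (p + (-(QuadraticMap.polar Q p v + Q v * QuadraticMap.polar Q p w)) • w +
            (QuadraticMap.polar Q p w) • v) := by simp [hP]; congr 1; module
        _ = Q p := by rw [Qexp, hQw, hwv]; ring
    · simp [hP, hw z hz, hv z, hfX z (Submodule.mem_sup_left hz)]
    · simp [hP, hxw0, hv x, hfx]

theorem extend (hQ : (QuadraticMap.polarBilin Q).Nondegenerate) (X Y : Submodule F V) (φ : X ≃ₗ[F] Y)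
    (hφ : ∀ x : X, Q (φ x : V) = Q (x : V)) :
    ∃ g : V ≃ₗ[F] V, (∀ v : V, Q (g v) = Q v) ∧ ∀ x : X, g (x : V) = (φ x : V) := by
  obtain ⟨g, hg, h⟩ := Witt.extend (fun u _ => Q u) (fun X₀ x y hx hy hk => by
    obtain ⟨g, hg, h1, h2⟩ := step Q hQ X₀ x y hx hy (fun z hz a => hk z hz 0 X₀.zero_mem a 0)
    exact ⟨g, fun u _ => hg u, h1, h2⟩) X Y φ (fun x _ => hφ x)
  exact ⟨g, fun v => hg v v, h⟩

end CfsgLib.Forms.WittQuad
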